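import Cfsg.Agent.Lib.H5TwoClsA
import Cfsg.Agent.Lib.H5SylowIn
import Cfsg.Agent.Lib.FrobeniusPComplement

/-! A faithful action on an abelian group in which all `s'`-elements have the same fixed points. -/

set_option autoImplicit false

namespace CfsgLib.Rk2

open Subgroup Cfsg CfsgLib.H5.Cover CfsgLib.H5.TwoCls

variable {E V : Type*} [Group E] [Finite E] [CommGroup V] [Finite V] [MulDistribMulAction E V]

theorem fix_of_norm {r : ℕ} (hr : r.Prime) {R : Subgroup E} (hR : (Nat.card R).Coprime r) {b : E}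
    (hb : b ∈ normalizer (R : Set E)) {k : ℕ} (hk : b ^ r ^ k = 1)
    (h1 : ∀ v : V, b • v = v → ∀ g ∈ R, g • v = v) {v : V} {j : ℕ} (hv : v ^ r ^ j = 1) {g : E}
    (hg : g ∈ R) : g • v = v := by
  have := Fact.mk hr
  have hB : IsPGroup r (zpowers b) := IsPGroup.of_card_dvd_pow
    (by rw [Nat.card_zpowers]; exact orderOf_dvd_of_pow_eq_one hk)
  have hbot : kerNm V r R = ⊥ := by
    by_contra hne
    letI := resAct (zpowers b) (kerNm V r R) fun g hg w hw =>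
      kerNm_smul (zpowers_le.2 hb hg) hw
    have hK : IsPGroup r (kerNm V r R) := fun w => by
      obtain ⟨j, hj⟩ := w.2.1
      exact ⟨j, Subtype.ext hj⟩
    have hnt : Nontrivial (kerNm V r R) := (nontrivial_iff_ne_bot _).2 hne
    obtain ⟨n, hn, hc⟩ := hK.nontrivial_iff_card.1 hnt
    obtain ⟨w, hw, hw1⟩ := hB.exists_fixed_point_of_prime_dvd_card_of_fixed_point
      (kerNm V r R) (hc ▸ dvd_pow_self r hn.ne') (a := 1) (fun g => smul_one g)
    have h2 : b • (w : V) = w := congrArg Subtype.val (hw ⟨b, mem_zpowers b⟩)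
    exact hw1 (Subtype.ext (kerNm_eq_one hR w.2 (h1 _ h2)).symm)
  have h2 : v ^ Nat.card R * (nm R v)⁻¹ ∈ kerNm V r R := by
    refine ⟨⟨j, ?_⟩, ?_⟩
    · rw [mul_pow, ← pow_mul, mul_comm (Nat.card R), pow_mul, hv, one_pow, one_mul, inv_pow,
        inv_eq_one]
      show nmHom R v ^ r ^ j = 1
      rw [← map_pow, hv, map_one]
    · show nmHom R _ = 1
      rw [map_mul, map_inv, map_pow, mul_inv_eq_one]
      exact (nm_of_fix fun y hy => smul_nm hy v).symm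
  rw [hbot, mem_bot, mul_inv_eq_one] at h2
  have h3 : g • v ^ Nat.card R = v ^ Nat.card R := by rw [h2]; exact smul_nm hg v
  obtain ⟨n, hn⟩ := exists_pow_eq_self_of_coprime (x := v) (n := Nat.card R)
    ((hR.pow_right j).coprime_dvd_right (orderOf_dvd_of_pow_eq_one hv))
  rw [← hn, smul_pow', h3]

theorem false_of_fixed' {s t u : ℕ} (hs : s.Prime) (ht : t.Prime) (hu : u.Prime) (htu : t ≠ u)
    {V₀ : Subgroup V} (h0 : ∀ e : E, ∀ v ∈ V₀, e • v = v)
    (h1 : ∀ e : E, e ≠ 1 → (orderOf e).Coprime s → ∀ v, e • v = v → v ∈ V₀)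
    (hf : ∀ e : E, (∀ v : V, e • v = v) → e = 1) (hV : ¬ s ∣ Nat.card V)
    (hb : ∀ r : ℕ, r.Prime → (∃ v ∉ V₀, ∃ k, v ^ r ^ k = 1) → ∃ e : E, e ≠ 1 ∧ ∃ k, e ^ r ^ k = 1)
    (hc : ∀ r : ℕ, r.Prime → r ≠ s → r ∣ Nat.card E → ∃ v ∉ V₀, ∃ k, v ^ r ^ k = 1)
    (hvt : ∃ v ∉ V₀, ∃ k, v ^ t ^ k = 1) (hvu : ∃ v ∉ V₀, ∃ k, v ^ u ^ k = 1) : False := by
  have := Fact.mk hs
  have hne : ∀ r : ℕ, r.Prime → (∃ v ∉ V₀, ∃ k, v ^ r ^ k = 1) → r ≠ s := by
    rintro r hr ⟨v, hv, k, hk⟩ rfl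
    refine hv (orderOf_eq_one_iff.1 (Nat.eq_one_of_dvd_coprimes
      ((hr.coprime_iff_not_dvd.2 hV).pow_left k) (orderOf_dvd_of_pow_eq_one hk)
      (orderOf_dvd_natCard v)) ▸ one_mem _)
  have hco : ∀ {r : ℕ}, r.Prime → r ≠ s → ∀ {e : E} {k : ℕ}, e ^ r ^ k = 1 →
      (orderOf e).Coprime s := fun hr hrs e k hk =>
    (((Nat.coprime_primes hr hs).2 hrs).pow_left k).coprime_dvd_left (orderOf_dvd_of_pow_eq_one hk)
  have key : ∀ r : ℕ, r.Prime → r ≠ s → ∀ R : Subgroup E, IsPGroup s R → ∀ b ∈ normalizer (R : Set E),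
      b ≠ 1 → (∃ k, b ^ r ^ k = 1) → ∀ v : V, (∃ k, v ^ r ^ k = 1) → ∀ g ∈ R, g • v = v := by
    rintro r hr hrs R hR b hb hb1 ⟨k, hk⟩ v ⟨j, hj⟩ g hg
    obtain ⟨n, hn⟩ := hR.exists_card_eq
    exact fix_of_norm hr (hn ▸ ((Nat.coprime_primes hs hr).2 hrs.symm).pow_left n) hb hk
      (fun w hw g _ => h0 g w (h1 b hb1 (hco hr hrs hk) w hw)) hj hg
  let K : ℕ → Subgroup E := fun r =>
    { carrier := {e | ∀ v : V, (∃ k, v ^ r ^ k = 1) → e • v = v}
      one_mem' := fun v _ => one_smul _ _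
      mul_mem' := fun {a b} ha hb v hv => by rw [mul_smul, hb v hv, ha v hv]
      inv_mem' := fun {a} ha v hv => by rw [inv_smul_eq_iff, ha v hv] }
  have hKn : ∀ r, (K r).Normal := fun r => ⟨fun a ha g v hv => by
    have h3 := ha (g⁻¹ • v) (hv.imp fun k hk => by rw [← smul_pow', hk, smul_one])
    rw [mul_smul, mul_smul, h3, smul_inv_smul]⟩
  have hK : ∀ r : ℕ, r.Prime → (∃ v ∉ V₀, ∃ k, v ^ r ^ k = 1) → K r = ⊥ := by
    rintro r hr ⟨v, hv, hk⟩
    have hp : IsPGroup s (K r) := H5.isPGroup_of_forall_coprime fun x hx hxc => by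
      by_contra hx1
      exact hv (h1 x hx1 hxc v (hx v hk))
    refine eq_bot_iff.2 fun e he => hf e fun w => ?_
    let F : Subgroup V :=
      { carrier := {v | e • v = v}
        one_mem' := smul_one e
        mul_mem' := fun {a b} ha hb => by
          show e • (a * b) = a * b
          rw [smul_mul', ha, hb]
        inv_mem' := fun {a} ha => by
          show e • a⁻¹ = a⁻¹
          rw [smul_inv', ha] }
    refine mem_of_forall_primePow_mem (K := F) fun y _ q k hq hk => ?_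
    by_cases hy : y ∈ V₀
    · exact h0 e y hy
    have h2 : ∃ k, y ^ q ^ k = 1 := ⟨k, hk ▸ pow_orderOf_eq_one y⟩
    obtain ⟨b, hb1, hb2⟩ := hb q hq ⟨y, hy, h2⟩
    have := hKn r
    exact key q hq (hne q hq ⟨y, hy, h2⟩) (K r) hp b ((K r).normalizer_eq_top ▸ mem_top b) hb1 hb2
      y h2 e he
  have hN : HasNormalPComplement s E := FrobNPC.hnpc_of_primePow_centralizes
    fun H hH hH1 g hg q k hq hqs hk => by
      by_cases hg1 : g = 1
      · rw [hg1]; exact one_mem _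
      have hk0 : k ≠ 0 := fun e => hg1 (orderOf_eq_one_iff.1 (by rw [hk, e, pow_zero]))
      have h2 := hc q hq hqs ((dvd_pow_self q hk0).trans (hk ▸ orderOf_dvd_natCard g))
      refine absurd (eq_bot_iff.2 ((hK q hq h2) ▸ fun x hx v hv => ?_)) hH1
      exact key q hq hqs H hH g hg hg1 ⟨k, hk ▸ pow_orderOf_eq_one g⟩ v hv x hx
  have hL : ∀ r : ℕ, r.Prime → (∃ v ∉ V₀, ∃ k, v ^ r ^ k = 1) →
      ∃ e : pResidual s E, e ≠ 1 ∧ ∃ k, e ^ r ^ k = 1 := fun r hr hv => by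
    obtain ⟨e, he, k, hk⟩ := hb r hr hv
    exact ⟨⟨e, (PCompl.hnpc_mem_pResidual_iff hN).2 (hco hr (hne r hr hv) hk)⟩,
      fun h => he (congrArg Subtype.val h), k, Subtype.ext hk⟩
  exact false_of_fixed (E := pResidual s E) (V := V) (V₀ := V₀) ht hu htu
    (fun e v hv => h0 e v hv) (fun e he v hv => h1 e (fun h => he (Subtype.ext h))
      ((PCompl.hnpc_mem_pResidual_iff hN).1 e.2) v hv) hvt hvu (hL t ht hvt) (hL u hu hvu)

end CfsgLib.Rk2
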